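import Cfsg.Agent.H926.QS.Six
import Cfsg.Agent.H6.QO.Frame
import Cfsg.Agent.H63.Odd
import Cfsg.Agent.H64.O73Two

/-!
# Fusion in the covers of `Ω₇(3)` (helper926)

For words `X`, `C` in the eight letters with `chk2 X C` and `chk3 X C` (`C X = ω X C` in the six-fold cover):

* `fuse` : in every perfect central extension `π : L → H8` some lift `y` of `X` is conjugate to `y z`, `z` a generator
  of the kernel;
* `isC` : if `π g = [X, k]` then `g` is a commutator;
* `row` : `RowA H8`, if every element of `H8` is `[X, k]` up to an automorphism of `H8`, `X` as above.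
-/

set_option autoImplicit false

namespace Cfsg.Agent.H926.QS.O73Fus

open Subgroup
open Cfsg Cfsg.Agent.H51.Mult Cfsg.Agent.H68.Bounds Cfsg.Agent.H6.QO Cfsg.Agent.H777.Ore
open Cfsg.Agent.Fischer.Derived Cfsg.Agent.Fischer.Y322 Cfsg.Agent.Fischer
open Cfsg.Agent.H926.QS.Cover6

universe u v

instance : Fact (Nat.Prime 3) := ⟨by norm_num⟩

theorem card_ker_dvd {L : Type u} [Group L] {π : L →* H8} (hd : PCE π) : Nat.card π.ker ∣ 6 := by
  have hb := Cfsg.Agent.H63.Odd.bd_two 3 (F := ZMod 3) (by decide) le_rfl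
  have h := Cfsg.Agent.H64.O73Two.hasCyclic_six hb (F := ZMod 3) (ZMod.card 3)
  have h1 := (ker_of_hasCyclic h (hd.congr Y322Iso.equiv)).2
  rwa [ker_congr] at h1

/-- `Six` maps onto every perfect central extension, over `H8` -/
theorem exists_theta {σ : Six →* H8} (hσ : PCE σ) (hk : σ.ker = zpowers ω) {L : Type u} [Group L] {π : L →* H8}
    (hd : PCE π) : ∃ θ : Six →* L, Function.Surjective θ ∧ ∀ x, π (θ x) = σ x := by
  obtain ⟨D, _, f, g, hf, hg, hfg, hD, -⟩ := exists_common hσ hd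
  have h1 := card_ker_dvd hD
  have h6 : Nat.card σ.ker = 6 := by rw [hk, Nat.card_zpowers, ω_order]
  rw [card_ker_comp hf.surj, h6] at h1
  have h4 : Nat.card f.ker ∣ 1 := by
    apply Nat.dvd_of_mul_dvd_mul_left (show 0 < 6 by norm_num)
    rw [mul_one]; exact h1
  have h2 : Function.Injective f := by
    rw [← MonoidHom.ker_eq_bot_iff]
    exact Subgroup.eq_bot_of_card_eq _ (Nat.dvd_one.1 h4)
  let e : D ≃* Six := MulEquiv.ofBijective f ⟨h2, hf.surj⟩
  refine ⟨g.comp e.symm.toMonoidHom, hg.surj.comp e.symm.surjective, fun x => ?_⟩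
  have h5 := DFunLike.congr_fun hfg (e.symm x)
  have h7 : f (e.symm x) = x := e.apply_symm_apply x
  rw [MonoidHom.comp_apply, MonoidHom.comp_apply, h7] at h5
  exact h5.symm

/-- **Fusion** -/
theorem fuse {X C : List (Fin 8)} (h2 : chk2 X C = true) (h3 : chk3 X C = true) {L : Type u} [Group L]
    {π : L →* H8} (hd : PCE π) :
    ∃ y z : L, π y = ev x8 X ∧ π z = 1 ∧ (∀ ζ, π ζ = 1 → ζ ∈ zpowers z) ∧ IsConj y (y * z) := by
  obtain ⟨σ, hσ, hσy, hk⟩ := exists_six
  obtain ⟨θ, hθ, hc⟩ := exists_theta hσ hk hd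
  refine ⟨θ (ev y6 X), θ ω, ?_, ?_, ?_, ?_⟩
  · rw [hc, map_ev]
    exact congrArg (fun s => ev s X) (funext fun j => hσy j)
  · rw [hc, ← MonoidHom.mem_ker, hk]
    exact mem_zpowers ω
  · intro ζ hζ
    obtain ⟨x, rfl⟩ := hθ ζ
    rw [hc, ← MonoidHom.mem_ker, hk] at hζ
    obtain ⟨n, rfl⟩ := mem_zpowers_iff.1 hζ
    exact mem_zpowers_iff.2 ⟨n, (map_zpow θ ω n).symm⟩
  · rw [isConj_iff]
    refine ⟨θ (ev y6 C), ?_⟩
    have e : ev y6 C * ev y6 X * (ev y6 C)⁻¹ = ev y6 X * ω := by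
      rw [comm_six h2 h3, mul_assoc, mul_assoc, mul_inv_cancel, mul_one, mem_center_iff.1 ω_center]
    rw [← map_mul, ← map_mul, ← map_inv, ← map_mul, e]

/-- **Commutators** -/
theorem isC {X C : List (Fin 8)} (h2 : chk2 X C = true) (h3 : chk3 X C = true) {L : Type u} [Group L]
    {π : L →* H8} (hd : PCE π) {g : L} {k : H8} (hg : π g = ev x8 X * k * (ev x8 X)⁻¹ * k⁻¹) : IsC g := by
  obtain ⟨y, z, hy, hz, hall, hconj⟩ := fuse h2 h3 hd
  exact isC_of_pair_zpowers hd.surj hd.cen hall hz (x := y) (k := k) (by rw [hy, hg]) hconj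

/-- the same for conjugates -/
theorem isC_of_isConj {X C : List (Fin 8)} (h2 : chk2 X C = true) (h3 : chk3 X C = true) {L : Type u} [Group L]
    {π : L →* H8} (hd : PCE π) {g : L} {k : H8} (hg : IsConj (π g) (ev x8 X * k * (ev x8 X)⁻¹ * k⁻¹)) : IsC g := by
  obtain ⟨c, hc⟩ := isConj_iff.1 hg
  obtain ⟨c, rfl⟩ := hd.surj c
  have h := isC h2 h3 hd (g := c * g * c⁻¹) (k := k) (by rw [map_mul, map_mul, map_inv, hc])
  exact h.of_isConj (isConj_iff.2 ⟨c⁻¹, by group⟩)

/-- **The row**: only representatives up to automorphisms are needed -/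
theorem row (hcov : ∀ g : H8, ∃ (X C : List (Fin 8)) (α : H8 ≃* H8) (k : H8), chk2 X C = true ∧ chk3 X C = true ∧
    IsConj (α g) (ev x8 X * k * (ev x8 X)⁻¹ * k⁻¹)) : RowA H8 := by
  intro L _ _ π hπ g
  obtain ⟨X, C, α, k, h2, h3, h⟩ := hcov (π g)
  exact isC_of_isConj h2 h3 (hπ.congr α) (k := k) h

/-- the row for `PΩ₇(3)` -/
theorem row_pomega (h : RowA H8) {F : Type u} [Field F] [Fintype F] (hF : Fintype.card F = 3) :
    RowA (Cfsg.POmega F (Cfsg.quadFormOdd 3 F)) := by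
  classical
  have σ : ZMod 3 ≃+* F := FiniteField.ringEquivOfCardEq (by rw [ZMod.card, hF])
  obtain ⟨e⟩ := Cfsg.Agent.UGT.U2.Rec.Congr.nonempty_POmegaOdd σ 3
  exact h.congr (Y322Iso.equiv.trans e)

end Cfsg.Agent.H926.QS.O73Fus
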