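import Cfsg.Agent.H926.QS.O73Fus

/-!
# Witnesses for the classes of `Ω₇(3)` (helper926)

`gd` : for every word `X` of the list `reps` (51 words, helper235) every lift of `X` in every perfect central extension
of `H8` is a commutator: `U X U⁻¹ = [X0, Y]` with `X0 = [4,3,2,5,6]` fused for 2 and 3. For the transposition `X = [6]`:
`U X U⁻¹ = [X1, Y]` with `X1 = [0,1,2,3,4,6]` fused for 3, and `X` itself is fused for 2.
-/

set_option autoImplicit false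
set_option maxRecDepth 100000
set_option Elab.async false

namespace Cfsg.Agent.H926.QS.O73Wit

open Subgroup
open Cfsg Cfsg.Agent.H64.O73Perm Cfsg.Agent.H51.Mult Cfsg.Agent.H6.QO Cfsg.Agent.H777.Ore
open Cfsg.Agent.Fischer.Derived Cfsg.Agent.Fischer.Y322 Cfsg.Agent.Fischer.Y322Iso
open Cfsg.Agent.H926.QS.Cover6 Cfsg.Agent.H926.QS.O73Fus

/-! ### Relations in `H8` from the permutations of degree 1134 -/

/-- the `j`-th power of the shift -/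
def shn : ℕ → ℕ → ℕ
  | 0, p => p
  | j + 1, p => sh (shn j p)

/-- `w` is `z^j` on one point of every block -/
def chkz (j : ℕ) (w : List (Fin 8)) : Bool := (List.range 378).all fun b =>
  Nat.beq (ap (w.map Fin.val) (3 * b)) (shn j (3 * b))

theorem z3_pow_val (j : ℕ) (p : Fin 1134) : ((z3 ^ j) p).val = shn j p.val := by
  induction j generalizing p with
  | zero => rfl
  | succ j ih =>
    rw [pow_succ', Equiv.Perm.mul_apply, z3_val, ih]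
    rfl

theorem g8_comm (j : Fin 8) : g8 j * z3 = z3 * g8 j := comm_gen j

theorem ev_comm (w : List (Fin 8)) : ev g8 w * z3 = z3 * ev g8 w := by
  induction w with
  | nil => rw [ev_nil, one_mul, mul_one]
  | cons l w ih => rw [ev_cons, mul_assoc, ih, ← mul_assoc, g8_comm, mul_assoc]

theorem exists_block (p : Fin 1134) : ∃ (b : ℕ) (hb : b < 378) (i : ℕ), p = (z3 ^ i) ⟨3 * b, by omega⟩ := by
  have hp := p.2
  have e : ∀ q : ℕ, sh q = if q % 3 = 2 then q - 2 else q + 1 := by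
    intro q
    unfold sh
    by_cases hq : q % 3 = 2
    · rw [if_pos hq, hq]; rfl
    · rw [if_neg hq]
      have : Nat.beq (q % 3) 2 = false := by
        cases hb : Nat.beq (q % 3) 2
        · rfl
        · exact absurd (Nat.eq_of_beq_eq_true hb) hq
      rw [this]; rfl
  refine ⟨p.val / 3, by omega, p.val % 3, ?_⟩
  apply Fin.ext
  rw [z3_pow_val]
  show p.val = shn (p.val % 3) (3 * (p.val / 3))
  have h3 : p.val % 3 = 0 ∨ p.val % 3 = 1 ∨ p.val % 3 = 2 := by omega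
  rcases h3 with h | h | h
  · rw [h]
    show p.val = 3 * (p.val / 3)
    omega
  · rw [h]
    show p.val = sh (3 * (p.val / 3))
    rw [e, if_neg (by omega)]
    omega
  · rw [h]
    show p.val = sh (sh (3 * (p.val / 3)))
    rw [e (3 * (p.val / 3)), if_neg (by omega), e, if_neg (by omega)]
    omega

theorem ev_eq_pow {j : ℕ} {w : List (Fin 8)} (h : chkz j w = true) : ev g8 w = z3 ^ j := by
  have hc : ∀ i : ℕ, ev g8 w * z3 ^ i = z3 ^ i * ev g8 w := fun i =>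
    ((show Commute (ev g8 w) z3 from ev_comm w).pow_right i).eq
  apply Equiv.ext
  intro p
  obtain ⟨b, hb, i, rfl⟩ := exists_block p
  rw [← Equiv.Perm.mul_apply, hc, Equiv.Perm.mul_apply, ← Equiv.Perm.mul_apply (z3 ^ j), ← pow_add, add_comm j i,
    pow_add, Equiv.Perm.mul_apply]
  congr 1
  apply Fin.ext
  rw [ev_val, z3_pow_val]
  exact Nat.eq_of_beq_eq_true (List.all_eq_true.1 h b (List.mem_range.2 hb))

/-- words equal to powers of `z` are trivial in `H8` -/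
theorem ev_x8_eq_one {j : ℕ} {w : List (Fin 8)} (h : chkz j w = true) : ev x8 w = 1 := by
  set z := ev y8 spider ^ 10 with hz
  have hzle : Subgroup.zpowers z ≤ Subgroup.center Trip := by
    rw [Subgroup.zpowers_le]; exact spider_center
  have hZn : (Subgroup.zpowers z).Normal := normal_of_le_center hzle
  set q := QuotientGroup.mk' (Subgroup.zpowers z) with hq
  have hqs : Function.Surjective q := QuotientGroup.mk'_surjective _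
  have hqk : q.ker = Subgroup.zpowers z := QuotientGroup.ker_mk' _
  have l1 : M8.IsLiftable (fun i => q (y8 i)) := by
    intro i j
    show (q (y8 i) * q (y8 j)) ^ M8 i j = 1
    rw [← map_mul, ← map_pow, y8_liftable, map_one]
  have l2 : ev (fun i => q (y8 i)) spider ^ 10 = 1 := by
    rw [← map_ev, ← map_pow, ← hz, ← MonoidHom.mem_ker, hqk]
    exact Subgroup.mem_zpowers z
  have l3 : ev (fun i => q (y8 i)) e7w ^ 9 = 1 := by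
    rw [← map_ev, ← map_pow, y8_e7, map_one]
  set τ := Fischer.Y322.lift l1 l2 l3 with hτ
  have hτi : Function.Injective τ := by
    apply injective_of_ne
    refine ⟨x8 0, fun h0 => ?_⟩
    rw [hτ, lift_x8] at h0
    have h1 : y8 0 ∈ Subgroup.zpowers z := by rw [← hqk]; exact h0
    have h2 := Subgroup.mem_center_iff.1 (hzle h1) (y8 1)
    have h3 := y8_liftable 0 1
    have hs0 := sq y8_liftable 0
    have hs1 := sq y8_liftable 1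
    rw [M8_apply, show lab 0 1 = 3 from rfl] at h3
    -- `y8 0 * y8 1` has order dividing 2 and 3
    have h4 : (y8 0 * y8 1) ^ 2 = 1 := by
      rw [pow_two, mul_assoc, ← mul_assoc (y8 1), h2, mul_assoc, hs1, mul_one, hs0]
    have h5 : y8 0 * y8 1 = 1 := by
      rw [pow_succ, h4, one_mul] at h3
      exact h3
    have h6 : y8 0 = y8 1 := by
      have := eq_inv_of_mul_eq_one_left h5
      rw [this, inv_eq_of_mul_eq_one_right hs1]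
    have h7 := y8_liftable 1 2
    have h8 := y8_liftable 0 2
    rw [M8_apply, show lab 1 2 = 3 from rfl, ← h6] at h7
    rw [M8_apply, show lab 0 2 = 2 from rfl] at h8
    have h9 : y8 0 * y8 2 = 1 := by
      rw [pow_succ, h8, one_mul] at h7
      exact h7
    -- `g8 0 = g8 2`
    have hs2 := sq y8_liftable 2
    have h10 : y8 0 = y8 2 := by
      have := eq_inv_of_mul_eq_one_left h9
      rw [this, inv_eq_of_mul_eq_one_right hs2]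
    have h11 := congrArg (fun x : Trip => ((x : Equiv.Perm (Fin 1134)) 3).val) h10
    revert h11
    decide +kernel
  apply hτi
  rw [map_one, hτ, map_ev]
  have h1 : (fun i => Fischer.Y322.lift l1 l2 l3 (x8 i)) = fun i => q (y8 i) := funext fun i => lift_x8 l1 l2 l3 i
  rw [h1, ← map_ev]
  have h2 : ev y8 w = z ^ j := by
    apply Subtype.ext
    rw [Subgroup.coe_pow, hz, Subgroup.coe_pow, coe_ev, coe_ev]
    exact ev_eq_pow h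
  rw [h2, ← MonoidHom.mem_ker, hqk]
  exact Subgroup.pow_mem _ (Subgroup.mem_zpowers z) j

/-! ### The table -/

/-- `U X U⁻¹ [X0, Y]⁻¹` -/
def wd (X0 X U Y : List (Fin 8)) : List (Fin 8) :=
  U ++ X ++ U.reverse ++ (Y ++ X0 ++ Y.reverse ++ X0.reverse)

theorem rel_of_chkz {j : ℕ} {X0 X U Y : List (Fin 8)} (h : chkz j (wd X0 X U Y) = true) :
    ev x8 U * ev x8 X * (ev x8 U)⁻¹ = ev x8 X0 * ev x8 Y * (ev x8 X0)⁻¹ * (ev x8 Y)⁻¹ := by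
  have h1 := ev_x8_eq_one h
  rw [wd, ev_append, ev_append, ev_append, ev_append, ev_append, ev_append, ev_reverse x8_liftable,
    ev_reverse x8_liftable, ev_reverse x8_liftable] at h1
  rw [mul_eq_one_iff_eq_inv] at h1
  rw [h1]
  group

/-- an entry -/
structure Row where
  X : List (Fin 8)
  U : List (Fin 8)
  Y : List (Fin 8)
  j : ℕ

/-- the doubly fused word -/
def X0 : List (Fin 8) := [4, 3, 2, 5, 6]

/-- the element which moves the lifts of `X0` -/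
def C0 : List (Fin 8) := [0, 7, 3, 2, 6, 5, 2, 3, 4, 1, 2, 3, 0, 1, 2, 6, 7, 5, 4, 3, 1, 2, 6, 3, 4, 5, 2, 3, 4, 1, 2, 3,
  0, 1, 2, 6, 7, 2, 6, 3, 4, 5, 4, 3].reverse

/-- a check of a list in two parts (memory) -/
theorem all_split {α : Type} {f : α → Bool} {l : List α} (n : ℕ) (h1 : ((l.take n).all f) = true)
    (h2 : ((l.drop n).all f) = true) : (l.all f) = true := by
  rw [← List.take_append_drop n l, List.all_append, h1, h2]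
  rfl

theorem x0_two_0 : (((List.range 2160).take 540).all fun p =>
    Nat.beq (ap2 ((C0 ++ X0).map Fin.val) p) (sg (ap2 ((X0 ++ C0).map Fin.val) p))) = true := by decide +kernel

theorem x0_two_1 : ((((List.range 2160).drop 540).take 540).all fun p =>
    Nat.beq (ap2 ((C0 ++ X0).map Fin.val) p) (sg (ap2 ((X0 ++ C0).map Fin.val) p))) = true := by decide +kernel

theorem x0_two_2 : (((((List.range 2160).drop 540).drop 540).take 540).all fun p =>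
    Nat.beq (ap2 ((C0 ++ X0).map Fin.val) p) (sg (ap2 ((X0 ++ C0).map Fin.val) p))) = true := by decide +kernel

theorem x0_two_3 : (((((List.range 2160).drop 540).drop 540).drop 540).all fun p =>
    Nat.beq (ap2 ((C0 ++ X0).map Fin.val) p) (sg (ap2 ((X0 ++ C0).map Fin.val) p))) = true := by decide +kernel

theorem x0_two : chk2 X0 C0 = true :=
  show ((List.range 2160).all fun p => Nat.beq (ap2 ((C0 ++ X0).map Fin.val) p) (sg (ap2 ((X0 ++ C0).map Fin.val) p))) = true from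
  all_split 540 x0_two_0 (all_split 540 x0_two_1 (all_split 540 x0_two_2 x0_two_3))

theorem x0_three_0 : (((List.range 1134).take 567).all fun p =>
    Nat.beq (ap ((C0 ++ X0).map Fin.val) p) (sh (ap ((X0 ++ C0).map Fin.val) p))) = true := by decide +kernel

theorem x0_three_1 : (((List.range 1134).drop 567).all fun p =>
    Nat.beq (ap ((C0 ++ X0).map Fin.val) p) (sh (ap ((X0 ++ C0).map Fin.val) p))) = true := by decide +kernel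

theorem x0_three : chk3 X0 C0 = true :=
  show ((List.range 1134).all fun p => Nat.beq (ap ((C0 ++ X0).map Fin.val) p) (sh (ap ((X0 ++ C0).map Fin.val) p))) = true from
  all_split 567 x0_three_0 x0_three_1

/-- witnesses -/
def tab0 : List Row := [
  ⟨[3, 5, 1],
    [1, 6, 2, 3, 4, 7, 6, 2],
    [1, 6, 2, 3, 4, 7, 6, 2, 7, 3, 2, 6, 4, 5, 3, 4, 2, 3, 1, 2, 6, 7, 2, 6, 2, 3, 4, 5, 3, 1, 2, 1], 0⟩,
  ⟨[6, 5],
    [7],
    [7, 4, 3, 2, 6, 7, 5, 2], 0⟩,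
  ⟨[4, 3, 2, 6, 1, 5, 0, 4, 3, 2, 6, 1, 5, 0, 4, 3, 2, 6, 1, 5, 0],
    [1, 2, 4, 5],
    [1, 2, 4, 5, 4, 5, 3, 4, 2, 3, 0, 1, 2, 6, 0, 1, 2, 3, 4, 5, 2, 3, 0, 1, 2, 0, 1], 0⟩,
  ⟨[4, 6, 7, 3],
    [3],
    [3, 6, 7, 2, 6, 2], 0⟩,
  ⟨[0, 4, 6, 7, 5, 1],
    [1, 0, 2, 6, 2, 3],
    [1, 0, 2, 6, 2, 4, 1, 2, 3, 0, 1, 2, 6, 7, 6, 3, 4], 0⟩,
  ⟨[0, 1, 7, 6],
    [1, 0, 2, 1, 0, 3, 2, 4, 3, 2, 6, 2],
    [1, 0, 2, 1, 0, 3, 2, 4, 3, 2, 6, 2, 6, 3, 4, 2, 3, 1, 2, 6, 7, 6, 4, 5, 4, 0, 1], 0⟩,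
  ⟨[4, 5],
    [4],
    [5], 0⟩,
  ⟨[0, 7, 1, 2, 3, 6, 0, 7, 1, 2, 3, 6, 0, 7, 1, 2, 3, 6, 0, 7, 1, 2, 3, 6],
    [1, 2, 1, 5, 4],
    [1, 2, 1, 5, 4, 1, 3, 4, 7, 5, 4, 3, 2, 6, 2, 3, 4, 1, 2, 3, 0, 1, 2, 6, 7, 5, 4, 3, 2, 6, 5, 2, 1], 1⟩,
  ⟨[3, 2, 5, 3, 1, 2, 6],
    [1, 2, 1, 0, 6],
    [1, 2, 1, 0, 6, 4, 5, 2, 3, 4, 1, 2, 3, 0, 1, 2, 6, 0, 1, 2, 3, 4, 5, 3, 1, 2, 0, 1], 0⟩,
  ⟨[7, 6, 0, 2],
    [1, 6, 2, 3, 7, 6, 2, 1],
    [1, 6, 2, 3, 7, 6, 2, 1, 2, 6, 1, 2, 3, 0, 1, 2, 6, 7, 5, 4, 1], 0⟩,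
  ⟨[3, 6, 2, 3, 1, 2],
    [3, 7],
    [3, 7, 2, 6, 7, 3, 1, 2, 6, 2, 1], 0⟩,
  ⟨[6, 2, 7],
    [1, 6],
    [1, 6, 5, 4, 6, 2, 3, 1, 2, 6, 4, 5, 3, 4, 2, 3, 1, 2, 6, 7, 6, 2, 3, 4, 5, 2, 3, 1, 2], 0⟩,
  ⟨[1, 2, 6, 7],
    [4, 3],
    [4, 3, 6, 7, 6, 3, 4, 1], 0⟩]

/-- witnesses -/
def tab1 : List Row := [
  ⟨[2, 1, 0, 4, 6, 3, 2, 1, 0, 4, 6, 3],
    [1, 0, 6, 2],
    [1, 0, 6, 2, 6, 5, 4, 1], 0⟩,
  ⟨[6, 4, 3, 7, 1],
    [4, 6],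
    [4, 6, 1, 2, 3, 6, 2, 3, 1, 2, 6, 4, 5, 3, 4, 2, 3, 1, 2, 6, 7, 6, 1, 2, 3, 4, 5, 3, 1, 2], 0⟩,
  ⟨[4, 3, 2, 5, 6],
    [2, 1, 0, 3, 2, 1],
    [2, 1, 0, 3, 2, 1, 4, 3, 2, 6, 5, 3, 4, 1, 2, 3, 0, 1, 2, 6, 5, 4, 0, 1, 2, 3, 0, 1], 0⟩,
  ⟨[3, 6, 7, 6, 5, 0, 5, 6, 5, 1, 2, 3, 6, 1, 2, 7, 1],
    [2, 1, 3, 5, 6, 2, 3],
    [2, 1, 3, 5, 6, 2, 3, 0, 1, 2, 4, 5, 6, 7, 6, 2, 3, 1, 2, 6, 7, 4, 3, 0, 1, 2, 6, 1, 2, 3, 4, 5, 2, 3, 0, 1, 2, 0, 1], 2⟩,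
  ⟨[6, 4, 0, 1, 2, 7, 5],
    [4, 3, 6],
    [4, 3, 6, 1, 0, 3, 2, 4, 3, 6, 2, 3, 1, 2, 6, 4, 5, 3, 4, 2, 3, 1, 2, 6, 7, 6, 1, 2, 3, 4, 5, 3, 1, 2], 0⟩,
  ⟨[1, 6, 5, 4],
    [2],
    [2, 6, 2, 3, 4, 1], 0⟩,
  ⟨[0, 7, 1, 2, 3, 6, 0, 7, 1, 2, 3, 6],
    [1, 4, 3],
    [1, 4, 3, 6, 7, 3, 2, 6, 4, 0, 1], 0⟩,
  ⟨[6, 1, 0, 7, 2, 4],
    [1, 3, 5, 6, 2, 3],
    [1, 3, 5, 6, 2, 3, 4, 1, 2, 3, 0, 1, 2, 6, 7, 6, 4, 0, 1], 0⟩,
  ⟨[6, 3, 1, 0, 5, 7],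
    [1, 6, 2],
    [1, 6, 2, 3, 4, 1, 2, 3, 0, 1, 2, 6, 7, 6, 4], 0⟩,
  ⟨[3, 2, 6, 1],
    [3, 6],
    [3, 6, 1, 2, 6, 1], 0⟩,
  ⟨[6, 4, 2],
    [1, 2, 1, 3, 6, 7],
    [1, 2, 1, 3, 6, 7, 6, 4, 5, 3, 4, 2, 3, 1, 2, 6, 7, 3, 2, 6, 1, 2, 3, 4, 5, 2, 3, 1, 2, 1], 0⟩,
  ⟨[7, 0, 1, 2, 6],
    [4, 3],
    [4, 3, 0, 1, 0, 2, 1, 3, 2, 6, 4, 5, 3, 4, 2, 3, 1, 2, 6, 7, 4, 3, 2, 6, 1, 2, 3, 4, 5, 1, 2, 1], 0⟩,
  ⟨[7, 4, 6, 0, 1],
    [1, 5, 4],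
    [1, 5, 4, 0, 3, 2, 1, 0, 4, 6, 2, 3, 1, 2, 6, 4, 5, 3, 4, 2, 3, 0, 1, 2, 6, 7, 6, 2, 3, 4, 5, 2, 3, 1, 2], 0⟩]

/-- witnesses -/
def tab2 : List Row := [
  ⟨[0, 2, 3, 4, 1, 7, 6, 0, 2, 3, 4, 1, 7, 6, 0, 2, 3, 4, 1, 7, 6],
    [4, 7, 6, 2, 1, 3, 2, 4, 3, 5, 6, 7],
    [4, 7, 6, 2, 1, 3, 2, 4, 3, 5, 6, 7, 0, 1, 0, 4, 5, 4, 3, 2, 6, 7, 1, 2, 6, 3, 4, 2, 3, 1, 2, 6, 7, 4, 3, 2, 6, 4, 3, 0, 1, 2, 0, 1], 1⟩,
  ⟨[6, 7, 3, 4, 2, 5],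
    [],
    [4, 3, 2, 6, 7, 6, 3], 0⟩,
  ⟨[6, 3, 5, 2, 4, 6, 1, 2],
    [2],
    [2, 5, 4, 2, 3, 1, 2, 6, 4, 1], 0⟩,
  ⟨[3, 1, 6, 4, 2],
    [7],
    [7, 1, 2, 3, 7, 2, 6, 4, 5, 3, 4, 2, 3, 1, 2, 6, 7, 2, 6, 1, 2, 3, 4, 5, 2, 3, 1, 2, 1], 0⟩,
  ⟨[4, 3, 2, 6, 1, 5, 0],
    [2, 3, 4, 7],
    [2, 3, 4, 7, 1, 0, 2, 1, 0, 7, 6, 2, 3, 1, 2, 6, 4, 5, 3, 4, 2, 3, 0, 1, 2, 6, 7, 6, 2, 3, 4, 5, 2, 3, 1, 2], 0⟩,
  ⟨[1, 7, 0, 2, 3, 1, 2, 6],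
    [1, 2, 4, 3],
    [1, 2, 4, 0, 1, 2, 6, 7, 2, 6, 4, 1], 0⟩,
  ⟨[2, 1, 7, 2, 6, 2, 1, 4, 3, 0, 2, 1, 7, 2, 6, 2, 1, 4, 3, 0],
    [2, 6],
    [2, 6, 3, 1, 2, 6, 7, 0, 1, 2, 6, 0, 1, 2, 1], 0⟩,
  ⟨[7, 1, 6, 2, 4],
    [1, 3, 2],
    [1, 3, 2, 3, 1, 2, 6, 4, 5, 3, 4, 2, 3, 1, 2, 6, 7, 6, 2, 3, 1, 2, 6, 4, 2, 3, 1], 0⟩,
  ⟨[4, 2, 5, 3, 7, 0],
    [1, 2, 1, 3, 6],
    [1, 2, 1, 3, 6, 2, 3, 4, 1, 2, 3, 0, 1, 2, 6, 7, 6, 4], 0⟩,
  ⟨[2, 1, 0, 4, 6, 3],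
    [3, 2, 1, 4],
    [3, 2, 1, 4, 6, 4, 2, 3, 0, 1, 2, 6, 2, 0, 1], 0⟩,
  ⟨[1, 6, 3, 2, 5, 1, 7, 6, 3, 2, 0, 7, 4],
    [2, 1, 6, 2, 3, 4, 5],
    [2, 1, 6, 2, 3, 4, 5, 1, 0, 2, 1, 0, 3, 2, 6, 4, 5, 3, 4, 2, 3, 1, 2, 6, 7, 4, 3, 2, 6, 1, 2, 3, 4, 5, 3, 1, 2, 1], 0⟩,
  ⟨[7, 2, 6, 5, 4, 0],
    [1, 2, 1, 4, 3, 7],
    [1, 2, 1, 4, 3, 7, 4, 5, 3, 4, 1, 2, 3, 0, 1, 2, 6, 7, 5, 4], 0⟩,
  ⟨[6, 5, 3, 7, 4],
    [1, 2, 4, 5],
    [1, 2, 4, 5, 1, 3, 2, 6, 7, 2, 6, 4, 5, 3, 4, 2, 3, 1, 2, 6, 7, 5, 4, 2, 3, 1, 2, 6, 4, 1, 2, 3], 0⟩]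

/-- witnesses -/
def tab3 : List Row := [
  ⟨[7, 1, 5, 6, 2, 0, 3],
    [6, 7],
    [6, 7, 0, 1, 2, 4, 3, 2, 1, 6, 2, 3, 0, 1, 2, 6, 4, 5, 3, 4, 2, 3, 1, 2, 6, 7, 6, 1, 2, 3, 4, 5, 1, 2], 0⟩,
  ⟨[7, 3, 0, 5, 1, 6, 4],
    [1, 3],
    [1, 3, 0, 2, 1, 0, 4, 6, 2, 3, 1, 2, 6, 4, 5, 3, 4, 2, 3, 0, 1, 2, 6, 7, 6, 2, 3, 4, 5, 2, 3, 1, 2], 0⟩,
  ⟨[0, 7, 1, 2, 3, 6],
    [1, 4, 3, 2, 7],
    [1, 4, 3, 2, 7, 3, 2, 6, 7, 3, 4, 0, 1], 0⟩,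
  ⟨[0, 4, 3, 7, 6, 2, 1, 5],
    [1, 2, 3, 2, 6, 7],
    [1, 2, 3, 2, 6, 7, 3, 4, 2, 3, 0, 1, 2, 6, 7, 4], 0⟩,
  ⟨[0, 4, 3, 7, 6, 2, 1, 5, 0, 4, 3, 7, 6, 2, 1, 5],
    [1, 0, 6, 7],
    [1, 0, 6, 7, 1, 2, 6, 4, 1], 0⟩,
  ⟨[3, 2, 4, 0, 5, 7, 1],
    [1, 2, 1, 3, 2, 6, 2],
    [1, 2, 1, 3, 2, 6, 2, 0, 2, 1, 3, 2, 4, 3, 2, 6, 7, 1, 2, 6, 5, 3, 4, 2, 3, 1, 2, 6, 7, 3, 2, 6, 1, 2, 3, 0, 1, 2], 1⟩,
  ⟨[1, 0, 4, 6, 5, 2],
    [1, 0, 2, 1, 3, 4],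
    [1, 0, 2, 1, 3, 4, 6, 5, 4, 2, 3, 1, 2, 6, 5, 3, 4, 1, 2, 0, 1], 0⟩,
  ⟨[2, 1, 3, 2, 6, 5, 7, 1, 2, 4, 6, 3, 2, 1, 7, 0, 1, 4],
    [1, 3, 2, 4, 7],
    [1, 3, 2, 4, 7, 4, 2, 3, 0, 1, 2, 6, 7, 6, 4, 1], 0⟩,
  ⟨[2, 1, 7, 2, 6, 2, 1, 4, 3, 0],
    [2, 1, 4, 3, 2],
    [2, 1, 4, 3, 2, 7, 3, 4, 2, 3, 0, 1, 2, 6, 4, 2, 0, 1], 0⟩,
  ⟨[0, 2, 3, 4, 1, 7, 6],
    [1, 4, 3],
    [1, 4, 3, 0, 1, 2, 3, 1, 2, 6, 4, 5, 3, 4, 2, 3, 1, 2, 6, 7, 6, 1, 2, 3, 4, 5, 3, 1, 2, 1], 0⟩,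
  ⟨[1, 0, 2, 3, 7, 4, 2, 5, 6, 2],
    [2, 1, 0, 4],
    [2, 1, 0, 4, 1, 2, 6, 7, 1, 2, 6, 4, 5, 0, 1], 0⟩]

theorem tab0_ok_0 : ((tab0.take 2).all fun t => chkz t.j (wd X0 t.X t.U t.Y)) = true := by decide +kernel

theorem tab0_ok_1 : (((tab0.drop 2).take 2).all fun t => chkz t.j (wd X0 t.X t.U t.Y)) = true := by decide +kernel

theorem tab0_ok_2 : ((((tab0.drop 2).drop 2).take 2).all fun t => chkz t.j (wd X0 t.X t.U t.Y)) = true := by decide +kernel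

theorem tab0_ok_3 : (((((tab0.drop 2).drop 2).drop 2).take 2).all fun t => chkz t.j (wd X0 t.X t.U t.Y)) = true := by decide +kernel

theorem tab0_ok_4 : ((((((tab0.drop 2).drop 2).drop 2).drop 2).take 2).all fun t => chkz t.j (wd X0 t.X t.U t.Y)) = true := by decide +kernel

theorem tab0_ok_5 : (((((((tab0.drop 2).drop 2).drop 2).drop 2).drop 2).take 2).all fun t => chkz t.j (wd X0 t.X t.U t.Y)) = true := by decide +kernel

theorem tab0_ok_6 : (((((((tab0.drop 2).drop 2).drop 2).drop 2).drop 2).drop 2).all fun t => chkz t.j (wd X0 t.X t.U t.Y)) = true := by decide +kernel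

theorem tab0_ok : (tab0.all fun t => chkz t.j (wd X0 t.X t.U t.Y)) = true :=
  all_split 2 tab0_ok_0 (all_split 2 tab0_ok_1 (all_split 2 tab0_ok_2 (all_split 2 tab0_ok_3 (all_split 2 tab0_ok_4 (all_split 2 tab0_ok_5 tab0_ok_6)))))

theorem tab1_ok_0 : ((tab1.take 2).all fun t => chkz t.j (wd X0 t.X t.U t.Y)) = true := by decide +kernel

theorem tab1_ok_1 : (((tab1.drop 2).take 2).all fun t => chkz t.j (wd X0 t.X t.U t.Y)) = true := by decide +kernel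

theorem tab1_ok_2 : ((((tab1.drop 2).drop 2).take 2).all fun t => chkz t.j (wd X0 t.X t.U t.Y)) = true := by decide +kernel

theorem tab1_ok_3 : (((((tab1.drop 2).drop 2).drop 2).take 2).all fun t => chkz t.j (wd X0 t.X t.U t.Y)) = true := by decide +kernel

theorem tab1_ok_4 : ((((((tab1.drop 2).drop 2).drop 2).drop 2).take 2).all fun t => chkz t.j (wd X0 t.X t.U t.Y)) = true := by decide +kernel

theorem tab1_ok_5 : (((((((tab1.drop 2).drop 2).drop 2).drop 2).drop 2).take 2).all fun t => chkz t.j (wd X0 t.X t.U t.Y)) = true := by decide +kernel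

theorem tab1_ok_6 : (((((((tab1.drop 2).drop 2).drop 2).drop 2).drop 2).drop 2).all fun t => chkz t.j (wd X0 t.X t.U t.Y)) = true := by decide +kernel

theorem tab1_ok : (tab1.all fun t => chkz t.j (wd X0 t.X t.U t.Y)) = true :=
  all_split 2 tab1_ok_0 (all_split 2 tab1_ok_1 (all_split 2 tab1_ok_2 (all_split 2 tab1_ok_3 (all_split 2 tab1_ok_4 (all_split 2 tab1_ok_5 tab1_ok_6)))))

theorem tab2_ok_0 : ((tab2.take 2).all fun t => chkz t.j (wd X0 t.X t.U t.Y)) = true := by decide +kernel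

theorem tab2_ok_1 : (((tab2.drop 2).take 2).all fun t => chkz t.j (wd X0 t.X t.U t.Y)) = true := by decide +kernel

theorem tab2_ok_2 : ((((tab2.drop 2).drop 2).take 2).all fun t => chkz t.j (wd X0 t.X t.U t.Y)) = true := by decide +kernel

theorem tab2_ok_3 : (((((tab2.drop 2).drop 2).drop 2).take 2).all fun t => chkz t.j (wd X0 t.X t.U t.Y)) = true := by decide +kernel

theorem tab2_ok_4 : ((((((tab2.drop 2).drop 2).drop 2).drop 2).take 2).all fun t => chkz t.j (wd X0 t.X t.U t.Y)) = true := by decide +kernel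

theorem tab2_ok_5 : (((((((tab2.drop 2).drop 2).drop 2).drop 2).drop 2).take 2).all fun t => chkz t.j (wd X0 t.X t.U t.Y)) = true := by decide +kernel

theorem tab2_ok_6 : (((((((tab2.drop 2).drop 2).drop 2).drop 2).drop 2).drop 2).all fun t => chkz t.j (wd X0 t.X t.U t.Y)) = true := by decide +kernel

theorem tab2_ok : (tab2.all fun t => chkz t.j (wd X0 t.X t.U t.Y)) = true :=
  all_split 2 tab2_ok_0 (all_split 2 tab2_ok_1 (all_split 2 tab2_ok_2 (all_split 2 tab2_ok_3 (all_split 2 tab2_ok_4 (all_split 2 tab2_ok_5 tab2_ok_6)))))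

theorem tab3_ok_0 : ((tab3.take 2).all fun t => chkz t.j (wd X0 t.X t.U t.Y)) = true := by decide +kernel

theorem tab3_ok_1 : (((tab3.drop 2).take 2).all fun t => chkz t.j (wd X0 t.X t.U t.Y)) = true := by decide +kernel

theorem tab3_ok_2 : ((((tab3.drop 2).drop 2).take 2).all fun t => chkz t.j (wd X0 t.X t.U t.Y)) = true := by decide +kernel

theorem tab3_ok_3 : (((((tab3.drop 2).drop 2).drop 2).take 2).all fun t => chkz t.j (wd X0 t.X t.U t.Y)) = true := by decide +kernel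

theorem tab3_ok_4 : ((((((tab3.drop 2).drop 2).drop 2).drop 2).take 2).all fun t => chkz t.j (wd X0 t.X t.U t.Y)) = true := by decide +kernel

theorem tab3_ok_5 : (((((((tab3.drop 2).drop 2).drop 2).drop 2).drop 2).take 2).all fun t => chkz t.j (wd X0 t.X t.U t.Y)) = true := by decide +kernel

theorem tab3_ok_6 : (((((((tab3.drop 2).drop 2).drop 2).drop 2).drop 2).drop 2).all fun t => chkz t.j (wd X0 t.X t.U t.Y)) = true := by decide +kernel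

theorem tab3_ok : (tab3.all fun t => chkz t.j (wd X0 t.X t.U t.Y)) = true :=
  all_split 2 tab3_ok_0 (all_split 2 tab3_ok_1 (all_split 2 tab3_ok_2 (all_split 2 tab3_ok_3 (all_split 2 tab3_ok_4 (all_split 2 tab3_ok_5 tab3_ok_6)))))

/-- the table -/
def tab : List Row := tab0 ++ tab1 ++ tab2 ++ tab3

theorem tab_ok : (tab.all fun t => chkz t.j (wd X0 t.X t.U t.Y)) = true := by
  rw [tab, List.all_append, List.all_append, List.all_append]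
  rw [tab0_ok, tab1_ok, tab2_ok, tab3_ok]
  rfl

/-! ### Commutators -/

/-- the lifts of `X` are commutators -/
def Gd (X : List (Fin 8)) : Prop :=
  ∀ (L : Type) [Group L] [Finite L] (π : L →* H8), PCE π → ∀ g : L, π g = ev x8 X → IsC g

theorem gd_of_rel {X U Y : List (Fin 8)}
    (h : ev x8 U * ev x8 X * (ev x8 U)⁻¹ = ev x8 X0 * ev x8 Y * (ev x8 X0)⁻¹ * (ev x8 Y)⁻¹) : Gd X := by
  intro L _ _ π hπ g hg
  exact isC_of_isConj x0_two x0_three hπ (k := ev x8 Y) (isConj_iff.2 ⟨ev x8 U, by rw [hg, h]⟩)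

theorem gd_tab : ∀ t ∈ tab, Gd t.X := by
  intro t ht
  exact gd_of_rel (rel_of_chkz (List.all_eq_true.1 tab_ok t ht))

theorem gd_nil : Gd [] := by
  refine gd_of_rel (U := []) (Y := []) ?_
  rw [ev_nil]
  group

/-! ### The transposition -/

theorem isC_mul {L : Type} [Group L] {x k c ζ : L} (hζ : ∀ y, y * ζ = ζ * y) (hc : c * x * c⁻¹ = x * ζ⁻¹) :
    IsC (x * k * x⁻¹ * k⁻¹ * ζ) := by
  have h4 : c * x⁻¹ * c⁻¹ = x⁻¹ * ζ := by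
    have h5 : (c * x * c⁻¹)⁻¹ = (x * ζ⁻¹)⁻¹ := by rw [hc]
    calc c * x⁻¹ * c⁻¹ = (c * x * c⁻¹)⁻¹ := by group
      _ = ζ * x⁻¹ := by rw [h5]; group
      _ = x⁻¹ * ζ := (hζ x⁻¹).symm
  refine ⟨x, k * c, ?_⟩
  calc x * k * x⁻¹ * k⁻¹ * ζ = x * k * x⁻¹ * (k⁻¹ * ζ) := by group
    _ = x * k * x⁻¹ * (ζ * k⁻¹) := by rw [hζ k⁻¹]
    _ = x * k * (x⁻¹ * ζ) * k⁻¹ := by group
    _ = x * k * (c * x⁻¹ * c⁻¹) * k⁻¹ := by rw [h4]
    _ = x * (k * c) * x⁻¹ * (k * c)⁻¹ := by group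

theorem isC_mix {L : Type} [Group L] {x k c z g d : L} (hz : ∀ y, y * z = z * y) (h6 : z ^ 6 = 1)
    (hc : c * x * c⁻¹ = x * z ^ 4) (hd : d * g * d⁻¹ = g * z ^ 3) {n : ℕ} (hg : g = x * k * x⁻¹ * k⁻¹ * z ^ n) :
    IsC g := by
  have hzn : ∀ (n : ℕ) (y : L), y * z ^ n = z ^ n * y := fun n y => ((show Commute y z from hz y).pow_right n).eq
  have key : ∀ m : ℕ, c ^ m * x * (c ^ m)⁻¹ = x * z ^ (4 * m) := by
    intro m
    induction m with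
    | zero => simp
    | succ m ih =>
      calc c ^ (m + 1) * x * (c ^ (m + 1))⁻¹ = c * (c ^ m * x * (c ^ m)⁻¹) * c⁻¹ := by rw [pow_succ']; group
        _ = c * x * (z ^ (4 * m) * c⁻¹) := by rw [ih]; group
        _ = c * x * (c⁻¹ * z ^ (4 * m)) := by rw [hzn]
        _ = (c * x * c⁻¹) * z ^ (4 * m) := by group
        _ = x * (z ^ 4 * z ^ (4 * m)) := by rw [hc]; group
        _ = x * z ^ (4 * (m + 1)) := by rw [← pow_add]; congr 2; ring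
  have heven : ∀ m : ℕ, IsC (x * k * x⁻¹ * k⁻¹ * z ^ (2 * m)) := by
    intro m
    refine isC_mul (c := c ^ m) (hzn _) ?_
    rw [key]
    congr 1
    rw [eq_inv_iff_mul_eq_one, ← pow_add, show 4 * m + 2 * m = 6 * m by ring, pow_mul, h6, one_pow]
  obtain ⟨m, hm⟩ | ⟨m, hm⟩ := Nat.even_or_odd n
  · rw [hg, hm, ← two_mul]
    exact heven m
  · have h1 := heven (m + 2)
    have h2 : g * z ^ 3 = x * k * x⁻¹ * k⁻¹ * z ^ (2 * (m + 2)) := by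
      rw [hg, mul_assoc _ (z ^ n), ← pow_add, hm, show 2 * m + 1 + 3 = 2 * (m + 2) by ring]
    rw [← h2] at h1
    exact h1.of_isConj (isConj_iff.2 ⟨d⁻¹, by rw [← hd]; group⟩)

/-- `C X = X C` on the spin module -/
def chk2p (X C : List (Fin 8)) : Bool := (List.range 2160).all fun p =>
  Nat.beq (ap2 ((C ++ X).map Fin.val) p) (ap2 ((X ++ C).map Fin.val) p)

theorem coe_ω4 : ((ω ^ 4 : Six) : Equiv.Perm (Fin 2160) × Equiv.Perm (Fin 1134)) = (1, z3) := by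
  rw [pow_succ, Subgroup.coe_mul, coe_ω3, coe_ω, Prod.mk_mul_mk, z2_sq, one_mul]

theorem comm_six4 {X C : List (Fin 8)} (h2 : chk2p X C = true) (h3 : chk3 X C = true) :
    ev y6 C * ev y6 X = ω ^ 4 * (ev y6 X * ev y6 C) := by
  apply Subtype.ext
  rw [Subgroup.coe_mul, Subgroup.coe_mul, Subgroup.coe_mul, coe_ω4, coe_ev6, coe_ev6, ← ev_append, ← ev_append]
  apply Prod.ext
  · rw [Prod.fst_mul, ev_fst, ev_fst, one_mul]
    apply Equiv.ext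
    intro p
    apply Fin.ext
    rw [ev_val2, ev_val2]
    exact Nat.eq_of_beq_eq_true (List.all_eq_true.1 h2 p (List.mem_range.2 p.2))
  · rw [Prod.snd_mul, ev_snd, ev_snd]
    apply Equiv.ext
    intro p
    apply Fin.ext
    rw [ev_val, Equiv.Perm.mul_apply, z3_val, ev_val]
    exact Nat.eq_of_beq_eq_true (List.all_eq_true.1 h3 p (List.mem_range.2 p.2))

/-- a word fused for 3 -/
def X1 : List (Fin 8) := [0, 1, 2, 3, 4, 6]

/-- the element which moves the lifts of `X1` -/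
def C1 : List (Fin 8) := [0, 2, 3, 2, 1, 6, 2, 1, 0, 3, 4, 7, 6, 2, 3, 1, 2, 6, 7, 4, 2, 3, 0, 1, 2, 6, 3, 0, 1, 2]

theorem x1_two_0 : (((List.range 2160).take 720).all fun p =>
    Nat.beq (ap2 ((C1 ++ X1).map Fin.val) p) (ap2 ((X1 ++ C1).map Fin.val) p)) = true := by decide +kernel

theorem x1_two_1 : ((((List.range 2160).drop 720).take 720).all fun p =>
    Nat.beq (ap2 ((C1 ++ X1).map Fin.val) p) (ap2 ((X1 ++ C1).map Fin.val) p)) = true := by decide +kernel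

theorem x1_two_2 : ((((List.range 2160).drop 720).drop 720).all fun p =>
    Nat.beq (ap2 ((C1 ++ X1).map Fin.val) p) (ap2 ((X1 ++ C1).map Fin.val) p)) = true := by decide +kernel

theorem x1_two : chk2p X1 C1 = true :=
  show ((List.range 2160).all fun p => Nat.beq (ap2 ((C1 ++ X1).map Fin.val) p) (ap2 ((X1 ++ C1).map Fin.val) p)) = true from
  all_split 720 x1_two_0 (all_split 720 x1_two_1 x1_two_2)

theorem x1_three_0 : (((List.range 1134).take 567).all fun p =>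
    Nat.beq (ap ((C1 ++ X1).map Fin.val) p) (sh (ap ((X1 ++ C1).map Fin.val) p))) = true := by decide +kernel

theorem x1_three_1 : (((List.range 1134).drop 567).all fun p =>
    Nat.beq (ap ((C1 ++ X1).map Fin.val) p) (sh (ap ((X1 ++ C1).map Fin.val) p))) = true := by decide +kernel

theorem x1_three : chk3 X1 C1 = true :=
  show ((List.range 1134).all fun p => Nat.beq (ap ((C1 ++ X1).map Fin.val) p) (sh (ap ((X1 ++ C1).map Fin.val) p))) = true from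
  all_split 567 x1_three_0 x1_three_1

/-- conjugating word -/
def U1 : List (Fin 8) := [5, 4, 6, 2, 1, 3, 2]

/-- second member -/
def Y1 : List (Fin 8) := [5, 4, 6, 2, 1, 3, 2, 0, 1, 4, 3, 2, 6, 5, 3, 4, 1, 2, 3, 0, 1, 2, 6, 2, 3, 4, 5, 4, 3, 2, 1]

theorem x1_rel : chkz 0 (wd X1 [6] U1 Y1) = true := by decide +kernel

theorem ω6 : ω ^ 6 = 1 := by
  have h := pow_orderOf_eq_one ω
  rwa [ω_order] at h

theorem transp : y6 0 * y6 6 * (y6 0)⁻¹ = y6 6 * ω ^ 3 := by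
  have h1 := rel6 0 6
  have h2 := rel6 0 0
  have h3 := rel6 6 6
  rw [show lab 0 6 = 2 from rfl] at h1
  rw [show lab 0 0 = 1 from rfl, pow_one] at h2
  rw [show lab 6 6 = 1 from rfl, pow_one] at h3
  have hc : ∀ y : Six, y * ω ^ 3 = ω ^ 3 * y := fun y =>
    ((show Commute y ω from mem_center_iff.1 ω_center y).pow_right 3).eq
  set a := y6 0
  set b := y6 6
  set w := ω ^ 3 with hw
  have hw2 : w * w = 1 := by rw [hw, ← pow_add]; exact ω6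
  -- `a b a b = w`, `a a = w`, `b b = w`
  have h4 : a * b * a⁻¹ = a * b * a * (a * a)⁻¹ := by group
  have h5 : a * b * a = w * b⁻¹ := by
    rw [← h1, pow_two]; group
  have h6 : b⁻¹ = w * b := by
    rw [inv_eq_iff_mul_eq_one, ← mul_assoc, hc, mul_assoc, h3, hw2]
  rw [h4, h5, h2, h6, hc]
  have h7 : w⁻¹ = w := inv_eq_of_mul_eq_one_right hw2
  rw [h7, ← mul_assoc, hw2, one_mul, hc]

theorem gd_six : Gd [6] := by
  intro L _ _ π hπ g hg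
  obtain ⟨σ, hσ, hσy, hk⟩ := exists_six
  obtain ⟨θ, hθ, hcθ⟩ := exists_theta hσ hk hπ
  have hev : ∀ w, π (θ (ev y6 w)) = ev x8 w := by
    intro w
    rw [hcθ, map_ev]
    exact congrArg (fun s => ev s w) (funext fun j => hσy j)
  set z := θ ω with hzdef
  have hz : ∀ y, y * z = z * y := by
    intro y
    obtain ⟨y, rfl⟩ := hθ y
    rw [hzdef, ← map_mul, ← map_mul, mem_center_iff.1 ω_center]
  have hz6 : z ^ 6 = 1 := by rw [hzdef, ← map_pow, ω6, map_one]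
  have hker : ∀ ζ, π ζ = 1 → ∃ n : ℕ, ζ = z ^ n := by
    intro ζ hζ
    obtain ⟨x, rfl⟩ := hθ ζ
    rw [hcθ, ← MonoidHom.mem_ker, hk] at hζ
    have h1 := mem_powers_iff_mem_zpowers.2 hζ
    obtain ⟨n, rfl⟩ := h1
    exact ⟨n, by rw [hzdef, ← map_pow]⟩
  -- the lift of the transposition
  obtain ⟨n0, hn0⟩ := hker ((θ (y6 6))⁻¹ * g) (by
    have h1 := hev [6]
    rw [ev_cons, ev_nil, mul_one] at h1
    rw [map_mul, map_inv, h1, hg, inv_mul_cancel])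
  have hg1 : g = θ (y6 6) * z ^ n0 := by rw [← hn0]; group
  have hd : θ (y6 0) * g * (θ (y6 0))⁻¹ = g * z ^ 3 := by
    have hc : ∀ (n : ℕ) (y : L), y * z ^ n = z ^ n * y := fun n y => ((show Commute y z from hz y).pow_right n).eq
    calc θ (y6 0) * g * (θ (y6 0))⁻¹ = θ (y6 0) * θ (y6 6) * (z ^ n0 * (θ (y6 0))⁻¹) := by rw [hg1]; group
      _ = θ (y6 0) * θ (y6 6) * ((θ (y6 0))⁻¹ * z ^ n0) := by rw [hc]
      _ = θ (y6 0 * y6 6 * (y6 0)⁻¹) * z ^ n0 := by rw [map_mul, map_mul, map_inv]; group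
      _ = θ (y6 6) * z ^ 3 * z ^ n0 := by rw [transp, map_mul, map_pow]
      _ = θ (y6 6) * z ^ n0 * z ^ 3 := by rw [mul_assoc, mul_assoc, ← pow_add, ← pow_add, add_comm]
      _ = g * z ^ 3 := by rw [← hg1]
  -- conjugate
  set u := θ (ev y6 U1) with hu
  have hu' : π u = ev x8 U1 := hev U1
  set g' := u * g * u⁻¹ with hg'
  have hrel := rel_of_chkz x1_rel
  rw [← hg, ← hu'] at hrel
  obtain ⟨n, hn⟩ := hker ((θ (ev y6 X1) * θ (ev y6 Y1) * (θ (ev y6 X1))⁻¹ * (θ (ev y6 Y1))⁻¹)⁻¹ * g') (by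
    rw [map_mul, map_inv, hg']
    simp only [map_mul, map_inv]
    rw [hrel, hev, hev, inv_mul_cancel])
  have h1 : IsC g' := by
    refine isC_mix (x := θ (ev y6 X1)) (k := θ (ev y6 Y1)) (c := θ (ev y6 C1)) (d := u * θ (y6 0) * u⁻¹) hz hz6 ?_ ?_
      (n := n) (by rw [← hn]; group)
    · have e : ev y6 C1 * ev y6 X1 * (ev y6 C1)⁻¹ = ev y6 X1 * ω ^ 4 := by
        have hc : ∀ y : Six, y * ω ^ 4 = ω ^ 4 * y := fun y =>
          ((show Commute y ω from mem_center_iff.1 ω_center y).pow_right 4).eq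
        rw [comm_six4 x1_two x1_three, mul_assoc, mul_assoc, mul_inv_cancel, mul_one, hc]
      rw [← map_mul, ← map_inv, ← map_mul, e, map_mul, map_pow]
    · calc u * θ (y6 0) * u⁻¹ * g' * (u * θ (y6 0) * u⁻¹)⁻¹ = u * (θ (y6 0) * g * (θ (y6 0))⁻¹) * u⁻¹ := by
            rw [hg']; group
        _ = u * (g * z ^ 3) * u⁻¹ := by rw [hd]
        _ = u * g * (z ^ 3 * u⁻¹) := by group
        _ = u * g * (u⁻¹ * z ^ 3) := by rw [((show Commute u⁻¹ z from hz u⁻¹).pow_right 3).eq]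
        _ = g' * z ^ 3 := by rw [hg']; group
  exact h1.of_isConj (isConj_iff.2 ⟨u⁻¹, by rw [hg']; group⟩)

/-! ### The row -/

/-- the representatives -/
def reps : List (List (Fin 8)) := tab.map (fun t => t.X) ++ [[6], []]

theorem gd : ∀ X ∈ reps, Gd X := by
  intro X hX
  rcases List.mem_append.1 hX with h | h
  · obtain ⟨t, ht, rfl⟩ := List.mem_map.1 h
    exact gd_tab t ht
  · rcases List.mem_cons.1 h with rfl | h
    · exact gd_six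
    · rw [List.mem_singleton.1 h]
      exact gd_nil

/-- **The row from the class list** -/
theorem row_of_classes (h : ∀ g : H8, ∃ X ∈ reps, ∃ α : H8 ≃* H8, IsConj (α g) (ev x8 X)) : RowA H8 := by
  intro L _ _ π hπ g
  obtain ⟨X, hX, α, hα⟩ := h (π g)
  obtain ⟨c, hc⟩ := isConj_iff.1 hα
  obtain ⟨c, rfl⟩ := (hπ.congr α).surj c
  have h1 := gd X hX L _ (hπ.congr α) (c * g * c⁻¹) (by rw [← hc, map_mul, map_mul, map_inv]; rfl)
  exact h1.of_isConj (isConj_iff.2 ⟨c⁻¹, by group⟩)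

end Cfsg.Agent.H926.QS.O73Wit
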