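import Cfsg.Agent.H926.QS.SixData
import Cfsg.Agent.H64.O73Perm
import Cfsg.Agent.H68.Bounds

/-!
# The six-fold cover of `Ω₇(3)` as a permutation group (helper926)

Eight permutations of 2160 vectors of the spin module together with the eight permutations of degree 1134 of the triple
cover generate a perfect central extension `Six` of `H8 ≅ Ω₇(3)` with kernel cyclic of order six.

* `exists_six` : the map `σ : Six → H8`, `σ (y6 j) = x8 j`, kernel `⟨ω⟩`, `orderOf ω = 6`;
* `comm_six` : `chk2`, `chk3` for two words `X`, `C` : `C X = ω X C` in `Six`.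
-/

set_option autoImplicit false
set_option maxRecDepth 100000

namespace Cfsg.Agent.H926.QS.Cover6

open Cfsg Cfsg.Agent.H926.QS.SixData Cfsg.Agent.H64.O73Perm Cfsg.Agent.H51.Mult
open Cfsg.Agent.Fischer.Derived Cfsg.Agent.Fischer.Y322 Cfsg.Agent.Fischer.Y322Iso
open scoped commutatorElement

/-! ### The permutations of degree 2160 -/

/-- value of a word at a point -/
def ap2 : List ℕ → ℕ → ℕ
  | [], p => p
  | l :: w, p => dg (T2 l) (ap2 w p)

/-- `-1` -/
def sg (p : ℕ) : ℕ := Nat.xor p 1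

theorem sg_check : ((List.range 2160).all fun p => Nat.blt (sg p) 2160 && Nat.beq (sg (sg p)) p) = true := by
  decide +kernel

theorem sg_lt {p : ℕ} (hp : p < 2160) : sg p < 2160 := by
  have h := List.all_eq_true.1 sg_check p (List.mem_range.2 hp)
  rw [Bool.and_eq_true] at h
  exact Nat.le_of_ble_eq_true h.1

theorem sg_sg {p : ℕ} (hp : p < 2160) : sg (sg p) = p := by
  have h := List.all_eq_true.1 sg_check p (List.mem_range.2 hp)
  rw [Bool.and_eq_true] at h
  exact Nat.eq_of_beq_eq_true h.2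

/-- the tables are tables of permutations of square `-1` -/
def chkT2 (j : ℕ) : Bool := (List.range 2160).all fun p =>
  Nat.blt (dg (T2 j) p) 2160 && (Nat.beq (dg (T2 j) (dg (T2 j) p)) (sg p) &&
    Nat.beq (dg (T2 j) (sg p)) (sg (dg (T2 j) p)))

theorem chkT2_0 : chkT2 0 = true := by decide +kernel
theorem chkT2_1 : chkT2 1 = true := by decide +kernel
theorem chkT2_2 : chkT2 2 = true := by decide +kernel
theorem chkT2_3 : chkT2 3 = true := by decide +kernel
theorem chkT2_4 : chkT2 4 = true := by decide +kernel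
theorem chkT2_5 : chkT2 5 = true := by decide +kernel
theorem chkT2_6 : chkT2 6 = true := by decide +kernel
theorem chkT2_7 : chkT2 7 = true := by decide +kernel

theorem chkT2_all : ∀ j, chkT2 j = true
  | 0 => chkT2_0
  | 1 => chkT2_1
  | 2 => chkT2_2
  | 3 => chkT2_3
  | 4 => chkT2_4
  | 5 => chkT2_5
  | 6 => chkT2_6
  | _ + 7 => chkT2_7

theorem ok2 (j p : ℕ) (hp : p < 2160) : dg (T2 j) p < 2160 ∧ dg (T2 j) (dg (T2 j) p) = sg p ∧
    dg (T2 j) (sg p) = sg (dg (T2 j) p) := by
  have h := List.all_eq_true.1 (chkT2_all j) p (List.mem_range.2 hp)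
  rw [Bool.and_eq_true, Bool.and_eq_true] at h
  exact ⟨Nat.le_of_ble_eq_true h.1, Nat.eq_of_beq_eq_true h.2.1, Nat.eq_of_beq_eq_true h.2.2⟩

/-- the letters -/
def S2 (j : ℕ) : Equiv.Perm (Fin 2160) where
  toFun p := ⟨dg (T2 j) p, (ok2 j p p.2).1⟩
  invFun p := ⟨sg (dg (T2 j) p), sg_lt (ok2 j p p.2).1⟩
  left_inv p := Fin.ext (by
    show sg (dg (T2 j) (dg (T2 j) p)) = p
    rw [(ok2 j p p.2).2.1, sg_sg p.2])
  right_inv p := Fin.ext (by
    show dg (T2 j) (sg (dg (T2 j) p)) = p
    rw [(ok2 j _ (ok2 j p p.2).1).2.2, (ok2 j p p.2).2.1, sg_sg p.2])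

/-- `-1` -/
def z2 : Equiv.Perm (Fin 2160) where
  toFun p := ⟨sg p, sg_lt p.2⟩
  invFun p := ⟨sg p, sg_lt p.2⟩
  left_inv p := Fin.ext (sg_sg p.2)
  right_inv p := Fin.ext (sg_sg p.2)

/-- the generators -/
def h8 (j : Fin 8) : Equiv.Perm (Fin 2160) := S2 j.val

theorem ev_val2 (w : List (Fin 8)) (p : Fin 2160) : (ev h8 w p).val = ap2 (w.map Fin.val) p.val := by
  induction w generalizing p with
  | nil => rfl
  | cons l w ih =>
    rw [ev_cons]
    show (S2 l.val (ev h8 w p)).val = dg (T2 l.val) (ap2 (w.map Fin.val) p.val)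
    rw [← ih]
    rfl

theorem z2_sq : z2 * z2 = 1 := by
  apply Equiv.ext
  intro p
  exact Fin.ext (sg_sg p.2)

theorem z2_ne : z2 ≠ 1 := by
  intro h
  have h1 := congrArg Fin.val (congrArg (fun f : Equiv.Perm (Fin 2160) => f 0) h)
  have h2 : sg 0 = 0 := h1
  revert h2
  decide

theorem z2_comm (j : Fin 8) : h8 j * z2 = z2 * h8 j := by
  apply Equiv.ext
  intro p
  exact Fin.ext (ok2 j.val p p.2).2.2

/-- the word is `-1` -/
def chkm (u : List ℕ) : Bool := (List.range 2160).all fun p => Nat.beq (ap2 u p) (sg p)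

/-- the word is `1` -/
def chkp (u : List ℕ) : Bool := (List.range 2160).all fun p => Nat.beq (ap2 u p) p

theorem ev_eq_z2 {w : List (Fin 8)} (h : chkm (w.map Fin.val) = true) : ev h8 w = z2 := by
  apply Equiv.ext
  intro p
  apply Fin.ext
  rw [ev_val2]
  exact Nat.eq_of_beq_eq_true (List.all_eq_true.1 h p (List.mem_range.2 p.2))

theorem ev_eq_one2 {w : List (Fin 8)} (h : chkp (w.map Fin.val) = true) : ev h8 w = 1 := by
  apply Equiv.ext
  intro p
  apply Fin.ext
  rw [ev_val2]
  exact Nat.eq_of_beq_eq_true (List.all_eq_true.1 h p (List.mem_range.2 p.2))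

/-- the Coxeter relations of a row -/
def chkRow2 (i : Fin 8) : Bool := (List.finRange 8).all fun j =>
  decide (j < i) || chkm ((rep (lab i j) [i, j]).map Fin.val)

theorem row2_0 : chkRow2 0 = true := by decide +kernel
theorem row2_1 : chkRow2 1 = true := by decide +kernel
theorem row2_2 : chkRow2 2 = true := by decide +kernel
theorem row2_3 : chkRow2 3 = true := by decide +kernel
theorem row2_4 : chkRow2 4 = true := by decide +kernel
theorem row2_5 : chkRow2 5 = true := by decide +kernel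
theorem row2_6 : chkRow2 6 = true := by decide +kernel
theorem row2_7 : chkRow2 7 = true := by decide +kernel

theorem row2_all : ∀ i, chkRow2 i = true
  | 0 => row2_0
  | 1 => row2_1
  | 2 => row2_2
  | 3 => row2_3
  | 4 => row2_4
  | 5 => row2_5
  | 6 => row2_6
  | 7 => row2_7

theorem rel2_of_le {i j : Fin 8} (h : i ≤ j) : (h8 i * h8 j) ^ lab i j = z2 := by
  have h1 := List.all_eq_true.1 (row2_all i) j (List.mem_finRange j)
  rw [Bool.or_eq_true, decide_eq_true_eq] at h1
  have h2 := ev_eq_z2 (h1.resolve_left (not_lt.2 h))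
  rw [ev_rep, ev_cons, ev_cons, ev_nil, mul_one] at h2
  exact h2

theorem rel2 (i j : Fin 8) : (h8 i * h8 j) ^ lab i j = z2 := by
  rcases le_total i j with h | h
  · exact rel2_of_le h
  · have h1 := rel2_of_le h
    rw [lab_symm] at h1
    have h2 : h8 i * h8 j = h8 i * (h8 j * h8 i) * (h8 i)⁻¹ := by group
    rw [h2, conj_pow, h1, z2_comm, mul_inv_cancel_right]

theorem e7_check2 : chkp ((rep 9 e7w).map Fin.val) = true := by decide +kernel

theorem h8_e7 : ev h8 e7w ^ 9 = 1 := by
  rw [← ev_rep]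
  exact ev_eq_one2 e7_check2

theorem spider_check2 : chkm ((rep 10 spider).map Fin.val) = true := by decide +kernel

theorem h8_spider : ev h8 spider ^ 10 = z2 := by
  rw [← ev_rep]
  exact ev_eq_z2 spider_check2

/-! ### The group -/

/-- the shift -/
def z3 : Equiv.Perm (Fin 1134) := ev g8 spider ^ 10

theorem z3_ne : z3 ≠ 1 := spider_ne

theorem z3_cube : z3 ^ 3 = 1 := spider_cube

theorem z3_val (p : Fin 1134) : (z3 p).val = sh p.val := spider_val p

/-- the generators -/
def s6 (j : Fin 8) : Equiv.Perm (Fin 2160) × Equiv.Perm (Fin 1134) := (h8 j, g8 j)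

/-- **The group** -/
abbrev Six : Subgroup (Equiv.Perm (Fin 2160) × Equiv.Perm (Fin 1134)) := Subgroup.closure (Set.range s6)

/-- the generators in the group -/
def y6 (j : Fin 8) : Six := ⟨s6 j, Subgroup.subset_closure ⟨j, rfl⟩⟩

theorem ev_fst (w : List (Fin 8)) : (ev s6 w).1 = ev h8 w :=
  map_ev (MonoidHom.fst (Equiv.Perm (Fin 2160)) (Equiv.Perm (Fin 1134))) s6 w

theorem ev_snd (w : List (Fin 8)) : (ev s6 w).2 = ev g8 w :=
  map_ev (MonoidHom.snd (Equiv.Perm (Fin 2160)) (Equiv.Perm (Fin 1134))) s6 w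

theorem coe_ev6 (w : List (Fin 8)) : ((ev y6 w : Six) : Equiv.Perm (Fin 2160) × Equiv.Perm (Fin 1134)) = ev s6 w :=
  map_ev (Subgroup.subtype Six) y6 w

theorem closure_y6 : Subgroup.closure (Set.range y6) = ⊤ := by
  have h1 := Subgroup.closure_closure_coe_preimage (k := Set.range s6)
  have h2 : (Subtype.val : Six → Equiv.Perm (Fin 2160) × Equiv.Perm (Fin 1134)) ⁻¹' Set.range s6 = Set.range y6 := by
    ext x
    constructor
    · rintro ⟨j, hj⟩
      exact ⟨j, Subtype.ext hj⟩
    · rintro ⟨j, rfl⟩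
      exact ⟨j, rfl⟩
  rw [← h2]
  exact h1

/-- the central element of order six -/
def ω : Six := ev y6 spider ^ 10

theorem coe_ω : ((ω : Six) : Equiv.Perm (Fin 2160) × Equiv.Perm (Fin 1134)) = (z2, z3) := by
  rw [ω, Subgroup.coe_pow, coe_ev6]
  apply Prod.ext
  · rw [Prod.pow_fst, ev_fst, h8_spider]
  · rw [Prod.pow_snd, ev_snd]
    rfl

theorem coe_ω3 : ((ω ^ 3 : Six) : Equiv.Perm (Fin 2160) × Equiv.Perm (Fin 1134)) = (z2, 1) := by
  rw [Subgroup.coe_pow, coe_ω]
  apply Prod.ext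
  · rw [Prod.pow_fst, pow_succ, pow_two, z2_sq, one_mul]
  · rw [Prod.pow_snd, z3_cube]

theorem ω_order : orderOf ω = 6 := by
  have h6 : ω ^ 6 = 1 := by
    apply Subtype.ext
    rw [show ω ^ 6 = ω ^ 3 * ω ^ 3 from by rw [← pow_add], Subgroup.coe_mul, coe_ω3, Prod.mk_mul_mk, z2_sq, one_mul]
    rfl
  have h3 : ω ^ 3 ≠ 1 := by
    intro h
    have h1 : ((ω ^ 3 : Six) : Equiv.Perm (Fin 2160) × Equiv.Perm (Fin 1134)) = 1 := congrArg Subtype.val h
    rw [coe_ω3] at h1
    exact z2_ne (congrArg Prod.fst h1)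
  have h2 : ω ^ 2 ≠ 1 := by
    intro h
    have h4 : ω ^ 4 = 1 := by rw [show (4 : ℕ) = 2 * 2 from rfl, pow_mul, h, one_pow]
    have h1 := congrArg (fun x : Six => (x : Equiv.Perm (Fin 2160) × Equiv.Perm (Fin 1134)).2) h4
    apply z3_ne
    have h5 : ((ω ^ 4 : Six) : Equiv.Perm (Fin 2160) × Equiv.Perm (Fin 1134)).2 = z3 := by
      rw [pow_succ, Subgroup.coe_mul, coe_ω3, coe_ω]
      exact one_mul _
    rw [← h5]
    exact h1
  have hd : orderOf ω ∣ 6 := orderOf_dvd_of_pow_eq_one h6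
  have hle := Nat.le_of_dvd (by norm_num) hd
  have n3 : ¬ orderOf ω ∣ 3 := fun h => h3 (orderOf_dvd_iff_pow_eq_one.1 h)
  have n2 : ¬ orderOf ω ∣ 2 := fun h => h2 (orderOf_dvd_iff_pow_eq_one.1 h)
  interval_cases hk : orderOf ω <;> first | rfl | omega

theorem rel6 (i j : Fin 8) : (y6 i * y6 j) ^ lab i j = ω ^ 3 := by
  apply Subtype.ext
  rw [coe_ω3, Subgroup.coe_pow, Subgroup.coe_mul]
  apply Prod.ext
  · rw [Prod.pow_fst]
    exact rel2 i j
  · rw [Prod.pow_snd]
    exact g8_liftable i j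

theorem ω_comm (j : Fin 8) : y6 j * ω = ω * y6 j := by
  apply Subtype.ext
  rw [Subgroup.coe_mul, Subgroup.coe_mul, coe_ω]
  apply Prod.ext
  · exact z2_comm j
  · exact comm_gen j

theorem ω_center : ω ∈ Subgroup.center Six := by
  rw [Subgroup.mem_center_iff]
  have h1 : ∀ x : Six, x ∈ Subgroup.centralizer {ω} := by
    intro x
    have h2 : (⊤ : Subgroup Six) ≤ Subgroup.centralizer {ω} := by
      rw [← closure_y6, Subgroup.closure_le]
      rintro _ ⟨j, rfl⟩
      rw [SetLike.mem_coe, Subgroup.mem_centralizer_singleton_iff]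
      exact ω_comm j
    exact h2 (Subgroup.mem_top x)
  exact fun x => Subgroup.mem_centralizer_singleton_iff.1 (h1 x)

theorem y6_e7 : ev y6 e7w ^ 9 = 1 := by
  apply Subtype.ext
  rw [Subgroup.coe_pow, coe_ev6]
  apply Prod.ext
  · rw [Prod.pow_fst, ev_fst, h8_e7]
    rfl
  · rw [Prod.pow_snd, ev_snd, g8_e7]
    rfl

theorem perfect6 : commutator Six = ⊤ := by
  have hc : Abelianization.of (ω ^ 3) = 1 := by
    have h1 := congrArg Abelianization.of (rel6 0 2)
    have h2 := congrArg Abelianization.of (rel6 0 0)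
    have h3 := congrArg Abelianization.of (rel6 2 2)
    rw [show lab 0 2 = 2 from rfl, map_pow, map_mul] at h1
    rw [show lab 0 0 = 1 from rfl, pow_one, map_mul] at h2
    rw [show lab 2 2 = 1 from rfl, pow_one, map_mul] at h3
    rw [pow_two, mul_mul_mul_comm, h2, h3] at h1
    exact mul_eq_left.1 h1
  have h1 : ∀ i, Abelianization.of (y6 i) = 1 := by
    refine comm_trivial (s := fun i => Abelianization.of (y6 i)) ?_ ?_
    · intro i j
      show (Abelianization.of (y6 i) * Abelianization.of (y6 j)) ^ M8 i j = 1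
      rw [← map_mul, ← map_pow, M8_apply, rel6, hc]
    · rw [← map_ev, ← map_pow, y6_e7, map_one]
  rw [← Abelianization.ker_of, eq_top_iff, ← closure_y6, Subgroup.closure_le]
  rintro _ ⟨i, rfl⟩
  exact (MonoidHom.mem_ker).2 (h1 i)

/-- **The six-fold cover of `Ω₇(3)`** -/
theorem exists_six : ∃ σ : Six →* H8, PCE σ ∧ (∀ j, σ (y6 j) = x8 j) ∧ σ.ker = Subgroup.zpowers ω := by
  have hzle : Subgroup.zpowers ω ≤ Subgroup.center Six := by
    rw [Subgroup.zpowers_le]; exact ω_center
  have hZn : (Subgroup.zpowers ω).Normal := normal_of_le_center hzle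
  set q := QuotientGroup.mk' (Subgroup.zpowers ω) with hq
  have hqs : Function.Surjective q := QuotientGroup.mk'_surjective _
  have hqk : q.ker = Subgroup.zpowers ω := QuotientGroup.ker_mk' _
  have hqω : q ω = 1 := by rw [← MonoidHom.mem_ker, hqk]; exact Subgroup.mem_zpowers ω
  have l1 : M8.IsLiftable (fun i => q (y6 i)) := by
    intro i j
    show (q (y6 i) * q (y6 j)) ^ M8 i j = 1
    rw [← map_mul, ← map_pow, M8_apply, rel6, map_pow, hqω, one_pow]
  have l2 : ev (fun i => q (y6 i)) spider ^ 10 = 1 := by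
    rw [← map_ev, ← map_pow]
    exact hqω
  have l3 : ev (fun i => q (y6 i)) e7w ^ 9 = 1 := by
    rw [← map_ev, ← map_pow, y6_e7, map_one]
  set τ := Fischer.Y322.lift l1 l2 l3 with hτ
  have hτs : Function.Surjective τ := by
    rw [← MonoidHom.range_eq_top, hτ, range_lift]
    have h1 := congrArg (Subgroup.map q) closure_y6
    rw [MonoidHom.map_closure, ← MonoidHom.range_eq_map, MonoidHom.range_eq_top.2 hqs, ← Set.range_comp] at h1
    exact h1
  have hτi : Function.Injective τ := by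
    apply injective_of_ne
    by_contra hcon
    push Not at hcon
    have h1 : (⊤ : Subgroup Six) ≤ Subgroup.zpowers ω := by
      rw [← hqk]
      intro x _
      obtain ⟨h, hh⟩ := hτs (q x)
      rw [MonoidHom.mem_ker, ← hh, hcon]
    have h2 : commutator Six = ⊥ := by
      rw [commutator_def, Subgroup.commutator_eq_bot_iff_le_centralizer]
      intro x _
      rw [Subgroup.mem_centralizer_iff]
      intro y _
      exact (Subgroup.mem_center_iff.1 (hzle (h1 (Subgroup.mem_top x))) y)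
    rw [perfect6] at h2
    have h3 : ω = 1 := Subgroup.mem_bot.1 (h2 ▸ Subgroup.mem_top ω)
    have h4 := ω_order
    rw [h3, orderOf_one] at h4
    omega
  set e := MulEquiv.ofBijective τ ⟨hτi, hτs⟩ with he
  have hk : (e.symm.toMonoidHom.comp q).ker = Subgroup.zpowers ω := by
    rw [ker_congr, hqk]
  refine ⟨e.symm.toMonoidHom.comp q, ⟨e.symm.surjective.comp hqs, by rw [hk]; exact hzle, perfect6⟩, ?_, hk⟩
  intro j
  show e.symm (q (y6 j)) = x8 j
  rw [MulEquiv.symm_apply_eq]
  show q (y6 j) = τ (x8 j)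
  rw [hτ, lift_x8]

/-! ### Words -/

/-- `C X = - X C` on the spin module -/
def chk2 (X C : List (Fin 8)) : Bool := (List.range 2160).all fun p =>
  Nat.beq (ap2 ((C ++ X).map Fin.val) p) (sg (ap2 ((X ++ C).map Fin.val) p))

/-- `C X = z X C` on 1134 points -/
def chk3 (X C : List (Fin 8)) : Bool := (List.range 1134).all fun p =>
  Nat.beq (ap ((C ++ X).map Fin.val) p) (sh (ap ((X ++ C).map Fin.val) p))

theorem comm_six {X C : List (Fin 8)} (h2 : chk2 X C = true) (h3 : chk3 X C = true) :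
    ev y6 C * ev y6 X = ω * (ev y6 X * ev y6 C) := by
  apply Subtype.ext
  rw [Subgroup.coe_mul, Subgroup.coe_mul, Subgroup.coe_mul, coe_ω, coe_ev6, coe_ev6, ← ev_append, ← ev_append]
  apply Prod.ext
  · rw [Prod.fst_mul, ev_fst, ev_fst]
    apply Equiv.ext
    intro p
    apply Fin.ext
    rw [ev_val2, Equiv.Perm.mul_apply]
    show _ = sg (ev h8 (X ++ C) p).val
    rw [ev_val2]
    exact Nat.eq_of_beq_eq_true (List.all_eq_true.1 h2 p (List.mem_range.2 p.2))
  · rw [Prod.snd_mul, ev_snd, ev_snd]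
    apply Equiv.ext
    intro p
    apply Fin.ext
    rw [ev_val, Equiv.Perm.mul_apply, z3_val, ev_val]
    exact Nat.eq_of_beq_eq_true (List.all_eq_true.1 h3 p (List.mem_range.2 p.2))

end Cfsg.Agent.H926.QS.Cover6
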